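import Cfsg.Agent.OrderType.Count

/-!
The small groups used in the pair of groups with the same order type.
-/

set_option autoImplicit false
set_option maxHeartbeats 4000000
set_option maxRecDepth 100000

namespace CfsgLib.OrderType

/-- Unitriangular matrices of degree 4 over the field with two elements. -/
structure UT where
  a : ZMod 2
  b : ZMod 2
  c : ZMod 2
  d : ZMod 2
  e : ZMod 2
  f : ZMod 2
deriving DecidableEq

instance : Fintype UT :=
  Fintype.ofEquiv (ZMod 2 × ZMod 2 × ZMod 2 × ZMod 2 × ZMod 2 × ZMod 2)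
    ⟨fun ⟨a, b, c, d, e, f⟩ => ⟨a, b, c, d, e, f⟩, fun x => (x.a, x.b, x.c, x.d, x.e, x.f), fun _ => rfl,
      fun _ => rfl⟩

namespace UT

instance : Mul UT :=
  ⟨fun x y => ⟨x.a + y.a, x.b + y.b, x.c + y.c, x.d + y.d + x.a * y.b, x.e + y.e + x.b * y.c,
    x.f + y.f + x.a * y.e + x.d * y.c⟩⟩

instance : One UT := ⟨⟨0, 0, 0, 0, 0, 0⟩⟩

instance : Inv UT :=
  ⟨fun x => ⟨-x.a, -x.b, -x.c, -x.d + x.a * x.b, -x.e + x.b * x.c,
    -x.f + x.a * x.e + x.d * x.c - x.a * x.b * x.c⟩⟩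

theorem ext' {x y : UT} (h1 : x.a = y.a) (h2 : x.b = y.b) (h3 : x.c = y.c) (h4 : x.d = y.d) (h5 : x.e = y.e)
    (h6 : x.f = y.f) : x = y := by
  cases x; cases y; simp_all

instance : Group UT :=
  Group.ofLeftAxioms
    (fun x y z => ext' (by show _ + _ + _ = _ + (_ + _); ring) (by show _ + _ + _ = _ + (_ + _); ring)
      (by show _ + _ + _ = _ + (_ + _); ring)
      (by show (x.d + y.d + x.a * y.b) + z.d + (x.a + y.a) * z.b = x.d + (y.d + z.d + y.a * z.b) + x.a * (y.b + z.b); ring)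
      (by show (x.e + y.e + x.b * y.c) + z.e + (x.b + y.b) * z.c = x.e + (y.e + z.e + y.b * z.c) + x.b * (y.c + z.c); ring)
      (by
        show (x.f + y.f + x.a * y.e + x.d * y.c) + z.f + (x.a + y.a) * z.e + (x.d + y.d + x.a * y.b) * z.c =
          x.f + (y.f + z.f + y.a * z.e + y.d * z.c) + x.a * (y.e + z.e + y.b * z.c) + x.d * (y.c + z.c)
        ring))
    (fun x => ext' (zero_add _) (zero_add _) (zero_add _) (by show 0 + x.d + 0 * x.b = x.d; ring)
      (by show 0 + x.e + 0 * x.c = x.e; ring) (by show 0 + x.f + 0 * x.e + 0 * x.c = x.f; ring))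
    (fun x => ext' (neg_add_cancel _) (neg_add_cancel _) (neg_add_cancel _)
      (by show (-x.d + x.a * x.b) + x.d + (-x.a) * x.b = 0; ring)
      (by show (-x.e + x.b * x.c) + x.e + (-x.b) * x.c = 0; ring)
      (by
        show (-x.f + x.a * x.e + x.d * x.c - x.a * x.b * x.c) + x.f + (-x.a) * x.e + (-x.d + x.a * x.b) * x.c = 0
        ring))

/-- The first superdiagonal entry. -/
def sgn : UT →* Multiplicative (ZMod 2) := MonoidHom.mk' (fun x => Multiplicative.ofAdd x.a) fun _ _ => rfl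

end UT

/-- The Frobenius group of order 42. -/
structure F42 where
  k : ZMod 7
  j : ZMod 6
deriving DecidableEq, Fintype

namespace F42

/-- The multiplier. -/
def mult (j : ZMod 6) : ZMod 7 := 3 ^ j.val

theorem mult_add : ∀ i j : ZMod 6, mult (i + j) = mult i * mult j := by decide

instance : Mul F42 := ⟨fun x y => ⟨x.k + mult x.j * y.k, x.j + y.j⟩⟩

instance : One F42 := ⟨⟨0, 0⟩⟩

instance : Inv F42 := ⟨fun x => ⟨-(mult (-x.j) * x.k), -x.j⟩⟩

theorem ext' {x y : F42} (h1 : x.k = y.k) (h2 : x.j = y.j) : x = y := by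
  cases x; cases y; simp_all

instance : Group F42 :=
  Group.ofLeftAxioms
    (fun x y z => ext'
      (by
        show x.k + mult x.j * y.k + mult (x.j + y.j) * z.k = x.k + mult x.j * (y.k + mult y.j * z.k)
        rw [mult_add]; ring)
      (add_assoc _ _ _))
    (fun x => ext' (by show 0 + mult 0 * x.k = x.k; rw [show mult 0 = 1 by decide]; ring) (zero_add _))
    (fun x => ext' (by show -(mult (-x.j) * x.k) + mult (-x.j) * x.k = 0; ring) (neg_add_cancel _))

/-- The projection to the complement. -/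
def toSix : F42 →* Multiplicative (ZMod 6) := MonoidHom.mk' (fun x => Multiplicative.ofAdd x.j) fun _ _ => rfl

/-- The parity. -/
def sgn : F42 →* Multiplicative (ZMod 2) :=
  MonoidHom.mk' (fun x => Multiplicative.ofAdd (x.j.val : ZMod 2)) fun x y => by
    show Multiplicative.ofAdd ((x.j + y.j).val : ZMod 2) = Multiplicative.ofAdd ((x.j.val : ZMod 2) + (y.j.val : ZMod 2))
    exact congrArg _ ((by decide : ∀ i j : ZMod 6, (((i + j).val : ZMod 2)) = (i.val : ZMod 2) + (j.val : ZMod 2)) _ _)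

theorem solvable : Group.IsSolvable F42 := by
  refine solvable_of_hom toSix fun x y hx hy => ?_
  replace hx : x.j = 0 := hx
  replace hy : y.j = 0 := hy
  refine ext' ?_ ?_
  · show x.k + mult x.j * y.k = y.k + mult y.j * x.k
    rw [hx, hy, show mult 0 = 1 by decide]; ring
  · show x.j + y.j = y.j + x.j
    ring

end F42

/-- Three bits. -/
abbrev V3 := ZMod 2 × ZMod 2 × ZMod 2

/-- The semilinear action on the field with eight elements. -/
def act (k : ZMod 7) (j : ZMod 3) (v : V3) : V3 :=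
  ((fun w : V3 => (w.2.2, w.1 + w.2.2, w.2.1))^[k.val]) (((fun w : V3 => (w.1, w.2.2, w.2.1 + w.2.2))^[j.val]) v)

theorem act_add : ∀ (k : ZMod 7) (j : ZMod 3) (v w : V3), act k j (v + w) = act k j v + act k j w := by
  decide +kernel

theorem act_act : ∀ (k : ZMod 7) (j : ZMod 3) (l : ZMod 7) (i : ZMod 3) (v : V3),
    act k j (act l i v) = act (k + 2 ^ j.val * l) (j + i) v := by
  decide +kernel

theorem two_pow_add : ∀ i j : ZMod 3, (2 : ZMod 7) ^ (i + j).val = 2 ^ i.val * 2 ^ j.val := by decide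

/-- The semilinear affine group of the field with eight elements. -/
structure AGamma where
  v : V3
  k : ZMod 7
  j : ZMod 3
deriving DecidableEq, Fintype

namespace AGamma

instance : Mul AGamma := ⟨fun x y => ⟨x.v + act x.k x.j y.v, x.k + 2 ^ x.j.val * y.k, x.j + y.j⟩⟩

instance : One AGamma := ⟨⟨0, 0, 0⟩⟩

instance : Inv AGamma :=
  ⟨fun x => ⟨-act (-(2 ^ (-x.j).val * x.k)) (-x.j) x.v, -(2 ^ (-x.j).val * x.k), -x.j⟩⟩

theorem ext' {x y : AGamma} (h0 : x.v = y.v) (h1 : x.k = y.k) (h2 : x.j = y.j) : x = y := by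
  cases x; cases y; simp_all

theorem act_zero : ∀ v : V3, act 0 0 v = v := by decide

instance : Group AGamma :=
  Group.ofLeftAxioms
    (fun x y z => ext'
      (by
        show x.v + act x.k x.j y.v + act (x.k + 2 ^ x.j.val * y.k) (x.j + y.j) z.v =
          x.v + act x.k x.j (y.v + act y.k y.j z.v)
        rw [act_add, act_act, add_assoc])
      (by
        show x.k + 2 ^ x.j.val * y.k + 2 ^ (x.j + y.j).val * z.k = x.k + 2 ^ x.j.val * (y.k + 2 ^ y.j.val * z.k)
        rw [two_pow_add]; ring)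
      (add_assoc _ _ _))
    (fun x => ext' (by show 0 + act 0 0 x.v = x.v; rw [act_zero, zero_add])
      (by show 0 + 2 ^ (0 : ZMod 3).val * x.k = x.k; rw [show (0 : ZMod 3).val = 0 from rfl, pow_zero, zero_add, one_mul])
      (zero_add _))
    (fun x => ext' (neg_add_cancel _)
      (by show -(2 ^ (-x.j).val * x.k) + 2 ^ (-x.j).val * x.k = 0; ring) (neg_add_cancel _))

theorem two_eq : ∀ j : ZMod 3, (2 : ZMod 7) ^ j.val = F42.mult (2 * (j.val : ZMod 6)) := by decide

/-- The quotient by the translations. -/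
def toF42 : AGamma →* F42 :=
  MonoidHom.mk' (fun x => ⟨x.k, 2 * (x.j.val : ZMod 6)⟩) fun x y => by
    refine F42.ext' ?_ ?_
    · show x.k + 2 ^ x.j.val * y.k = x.k + F42.mult (2 * (x.j.val : ZMod 6)) * y.k
      rw [two_eq]
    · show (2 * ((x.j + y.j).val : ZMod 6)) = 2 * (x.j.val : ZMod 6) + 2 * (y.j.val : ZMod 6)
      exact (by decide : ∀ i j : ZMod 3, (2 * ((i + j).val : ZMod 6)) = 2 * (i.val : ZMod 6) + 2 * (j.val : ZMod 6)) _ _

theorem solvable : Group.IsSolvable AGamma := by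
  haveI := F42.solvable
  refine solvable_of_hom toF42 fun x y hx hy => ?_
  have hh : ∀ z : AGamma, toF42 z = 1 → z.k = 0 ∧ z.j = 0 := fun z hz =>
    ⟨congrArg F42.k hz, (by decide : ∀ j : ZMod 3, (2 * (j.val : ZMod 6)) = 0 → j = 0) _ (congrArg F42.j hz)⟩
  obtain ⟨hx1, hx2⟩ := hh x hx
  obtain ⟨hy1, hy2⟩ := hh y hy
  refine ext' ?_ ?_ ?_
  · show x.v + act x.k x.j y.v = y.v + act y.k y.j x.v
    rw [hx1, hx2, hy1, hy2, act_zero, act_zero, add_comm]
  · show x.k + 2 ^ x.j.val * y.k = y.k + 2 ^ y.j.val * x.k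
    rw [hx1, hy1, mul_zero, mul_zero]
  · exact add_comm _ _

end AGamma

/-- Three by three matrices over the field with two elements. -/
structure M3 where
  a : ZMod 2
  b : ZMod 2
  c : ZMod 2
  d : ZMod 2
  e : ZMod 2
  f : ZMod 2
  g : ZMod 2
  h : ZMod 2
  i : ZMod 2
deriving DecidableEq

instance : Fintype M3 :=
  Fintype.ofEquiv ((ZMod 2 × ZMod 2 × ZMod 2) × (ZMod 2 × ZMod 2 × ZMod 2) × (ZMod 2 × ZMod 2 × ZMod 2))
    ⟨fun ⟨⟨a, b, c⟩, ⟨d, e, f⟩, g, h, i⟩ => ⟨a, b, c, d, e, f, g, h, i⟩,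
      fun x => ((x.a, x.b, x.c), (x.d, x.e, x.f), x.g, x.h, x.i), fun _ => rfl, fun _ => rfl⟩

namespace M3

/-- The determinant. -/
def det (x : M3) : ZMod 2 :=
  x.a * (x.e * x.i - x.f * x.h) - x.b * (x.d * x.i - x.f * x.g) + x.c * (x.d * x.h - x.e * x.g)

/-- The product. -/
def mul (x y : M3) : M3 :=
  ⟨x.a * y.a + x.b * y.d + x.c * y.g, x.a * y.b + x.b * y.e + x.c * y.h, x.a * y.c + x.b * y.f + x.c * y.i,
    x.d * y.a + x.e * y.d + x.f * y.g, x.d * y.b + x.e * y.e + x.f * y.h, x.d * y.c + x.e * y.f + x.f * y.i,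
    x.g * y.a + x.h * y.d + x.i * y.g, x.g * y.b + x.h * y.e + x.i * y.h, x.g * y.c + x.h * y.f + x.i * y.i⟩

theorem det_mul (x y : M3) : det (mul x y) = det x * det y := by
  simp only [det, mul]; ring

/-- The adjugate. -/
def adj (x : M3) : M3 :=
  ⟨x.e * x.i - x.f * x.h, x.c * x.h - x.b * x.i, x.b * x.f - x.c * x.e,
    x.f * x.g - x.d * x.i, x.a * x.i - x.c * x.g, x.c * x.d - x.a * x.f,
    x.d * x.h - x.e * x.g, x.b * x.g - x.a * x.h, x.a * x.e - x.b * x.d⟩

theorem adj_det : ∀ x : M3, det x = 1 → det (adj x) = 1 ∧ mul (adj x) x = ⟨1, 0, 0, 0, 1, 0, 0, 0, 1⟩ := by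
  decide +kernel

end M3

/-- The simple group of order 168. -/
abbrev L168 := {x : M3 // x.det = 1}

instance : Mul L168 := ⟨fun x y => ⟨M3.mul x.1 y.1, by rw [M3.det_mul, x.2, y.2, mul_one]⟩⟩

instance : One L168 := ⟨⟨⟨1, 0, 0, 0, 1, 0, 0, 0, 1⟩, by decide⟩⟩

instance : Inv L168 := ⟨fun x => ⟨M3.adj x.1, (M3.adj_det x.1 x.2).1⟩⟩

instance : Group L168 :=
  Group.ofLeftAxioms
    (fun x y z => Subtype.ext (by
      show M3.mul (M3.mul x.1 y.1) z.1 = M3.mul x.1 (M3.mul y.1 z.1)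
      simp only [M3.mul, M3.mk.injEq]
      refine ⟨?_, ?_, ?_, ?_, ?_, ?_, ?_, ?_, ?_⟩ <;> ring))
    (fun x => Subtype.ext (by
      show M3.mul ⟨1, 0, 0, 0, 1, 0, 0, 0, 1⟩ x.1 = x.1
      rcases x with ⟨⟨_, _, _, _, _, _, _, _, _⟩, _⟩
      simp [M3.mul]))
    (fun x => Subtype.ext (M3.adj_det x.1 x.2).2)

end CfsgLib.OrderType
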