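import Mathlib

/-!
Counting solutions of `x ^ d = 1`; groups with the same counts have the same order type.
-/

set_option autoImplicit false

namespace CfsgLib.OrderType

/-- The number of solutions of `x ^ d = 1`. -/
noncomputable def solCount (G : Type*) [Monoid G] (d : ℕ) : ℕ := Nat.card {x : G // x ^ d = 1}

theorem solCount_prod {A B : Type*} [Monoid A] [Monoid B] (d : ℕ) :
    solCount (A × B) d = solCount A d * solCount B d := by
  rw [solCount, solCount, solCount, ← Nat.card_prod]
  refine Nat.card_congr ((Equiv.subtypeEquivRight fun x => ?_).trans Equiv.subtypeProdEquivProd)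
  rw [Prod.ext_iff, Prod.pow_fst, Prod.pow_snd, Prod.fst_one, Prod.snd_one]

theorem solCount_pi {A : Type*} [Monoid A] (n d : ℕ) :
    solCount (Fin n → A) d = solCount A d ^ n := by
  have e : Nat.card (Fin n → {x : A // x ^ d = 1}) = Nat.card {x : A // x ^ d = 1} ^ n := by
    rw [Nat.card_fun, Nat.card_fin]
  rw [solCount, solCount, ← e]
  refine Nat.card_congr ((Equiv.subtypeEquivRight fun x => ?_).trans
    (Equiv.subtypePiEquivPi (p := fun (_ : Fin n) (a : A) => a ^ d = 1)))
  rw [funext_iff]
  rfl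

/-- The subgroup of pairs with the same image. -/
def fib {A B Q : Type*} [Group A] [Group B] [Group Q] (f : A →* Q) (g : B →* Q) : Subgroup (A × B) :=
  (f.comp (MonoidHom.fst A B)).eqLocus (g.comp (MonoidHom.snd A B))

theorem solCount_fib {A B Q : Type*} [Group A] [Group B] [Group Q] [Finite A] [Finite B] [Fintype Q]
    (f : A →* Q) (g : B →* Q) (d : ℕ) :
    solCount (fib f g) d =
      ∑ q : Q, Nat.card {a : A // f a = q ∧ a ^ d = 1} * Nat.card {b : B // g b = q ∧ b ^ d = 1} := by
  rw [solCount]
  simp only [← Nat.card_prod]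
  rw [← Nat.card_sigma]
  refine Nat.card_congr
    { toFun := fun x => ⟨f x.1.1.1, ⟨x.1.1.1, rfl, ?_⟩, ⟨x.1.1.2, ?_, ?_⟩⟩
      invFun := fun x => ⟨⟨(x.2.1.1, x.2.2.1), ?_⟩, ?_⟩
      left_inv := ?_
      right_inv := ?_ }
  · exact congrArg (fun z : fib f g => z.1.1) x.2
  · exact x.1.2.symm
  · exact congrArg (fun z : fib f g => z.1.2) x.2
  · exact x.2.1.2.1.trans x.2.2.2.1.symm
  · exact Subtype.ext (Prod.ext x.2.1.2.2 x.2.2.2.2)
  · intro x; rfl
  · rintro ⟨q, ⟨a, ha, hd⟩, ⟨b, hb, hd'⟩⟩
    subst ha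
    rfl

theorem solCount_eq_sum {G : Type*} [Group G] [Finite G] (d : ℕ) (hd : d ≠ 0) :
    solCount G d = ∑ e ∈ d.divisors, Nat.card {g : G // orderOf g = e} := by
  classical
  haveI := Fintype.ofFinite G
  simp only [solCount, Nat.card_eq_fintype_card, Fintype.card_subtype]
  rw [Finset.card_eq_sum_card_fiberwise (f := fun g : G => orderOf g) (t := d.divisors)]
  · refine Finset.sum_congr rfl fun e he => congrArg Finset.card ?_
    ext g
    simp only [Finset.mem_filter, Finset.mem_univ, true_and]
    refine ⟨fun h => h.2, fun h => ⟨?_, h⟩⟩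
    exact orderOf_dvd_iff_pow_eq_one.1 (h ▸ Nat.dvd_of_mem_divisors he)
  · intro g hg
    exact Nat.mem_divisors.2 ⟨orderOf_dvd_of_pow_eq_one (Finset.mem_filter.1 hg).2, hd⟩

theorem solCount_gcd {G : Type*} [Group G] [Finite G] (E : ℕ) (hE : solCount G E = Nat.card G) (d : ℕ) :
    solCount G d = solCount G (d.gcd E) := by
  have hall : ∀ g : G, g ^ E = 1 := by
    classical
    haveI := Fintype.ofFinite G
    rw [solCount, Nat.card_eq_fintype_card, Nat.card_eq_fintype_card] at hE
    intro g
    by_contra hne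
    exact absurd hE (Fintype.card_subtype_lt (p := fun x : G => x ^ E = 1) hne).ne
  exact Nat.card_congr (Equiv.subtypeEquivRight fun g => by rw [pow_gcd_eq_one]; simp [hall g])

theorem orderType_eq {G H : Type*} [Group G] [Group H] [Finite G] [Finite H] {E : ℕ} (hE0 : E ≠ 0)
    (h : ∀ d ∈ E.divisors, solCount G d = solCount H d) (hG : solCount G E = Nat.card G)
    (hH : solCount H E = Nat.card H) (n : ℕ) :
    Nat.card {g : G // orderOf g = n} = Nat.card {g : H // orderOf g = n} := by
  have hall : ∀ d, solCount G d = solCount H d := fun d => by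
    rw [solCount_gcd E hG d, solCount_gcd E hH d]
    exact h _ (Nat.mem_divisors.2 ⟨Nat.gcd_dvd_right d E, hE0⟩)
  induction n using Nat.strong_induction_on with
  | _ n ih =>
  rcases Nat.eq_zero_or_pos n with rfl | hn
  · haveI : IsEmpty {g : G // orderOf g = 0} := ⟨fun g => (orderOf_pos g.1).ne' g.2⟩
    haveI : IsEmpty {g : H // orderOf g = 0} := ⟨fun g => (orderOf_pos g.1).ne' g.2⟩
    rw [Nat.card_of_isEmpty, Nat.card_of_isEmpty]
  · have h1 := hall n
    rw [solCount_eq_sum n hn.ne', solCount_eq_sum n hn.ne', ← Nat.cons_self_properDivisors hn.ne',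
      Finset.sum_cons, Finset.sum_cons,
      Finset.sum_congr rfl fun e he => ih e (Nat.mem_properDivisors.1 he).2] at h1
    exact Nat.add_right_cancel h1

/-- Binary powering with a bounded number of steps. -/
def pw {M : Type*} [Monoid M] : ℕ → M → ℕ → M
  | 0, _, _ => 1
  | k + 1, x, d => if d % 2 = 0 then pw k (x * x) (d / 2) else x * pw k (x * x) (d / 2)

theorem pw_eq {M : Type*} [Monoid M] : ∀ (k : ℕ) (x : M) (d : ℕ), d < 2 ^ k → pw k x d = x ^ d
  | 0, x, d, h => by
    obtain rfl : d = 0 := by simpa using h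
    exact (pow_zero x).symm
  | k + 1, x, d, h => by
    have hd : d / 2 < 2 ^ k := by
      rw [pow_succ] at h
      omega
    rw [pw, pw_eq k _ _ hd, ← pow_two, ← pow_mul]
    split
    · congr 1; omega
    · rw [← pow_succ']; congr 1; omega

theorem card_sol {M Q : Type*} [Monoid M] [Fintype M] [DecidableEq M] [DecidableEq Q] (f : M → Q) (q : Q)
    (d : ℕ) (hd : d < 128) :
    Nat.card {a : M // f a = q ∧ a ^ d = 1} =
      (Finset.univ.filter fun a : M => f a = q ∧ pw 7 a d = 1).card := by
  rw [Nat.card_eq_fintype_card, Fintype.card_subtype]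
  simp only [pw_eq 7 _ d hd]

theorem solvable_of_hom {A B : Type*} [Group A] [Group B] [Group.IsSolvable B] (f : A →* B)
    (h : ∀ x y : A, f x = 1 → f y = 1 → x * y = y * x) : Group.IsSolvable A := by
  haveI : Group.IsSolvable f.ker := Group.isSolvable_of_comm fun x y => Subtype.ext (h x y x.2 y.2)
  exact Group.isSolvable_of_ker_le_range f.ker.subtype f (by rw [Subgroup.range_subtype])

end CfsgLib.OrderType
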