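import Cfsg.Agent.OrderType.Atoms

/-!
Counts of solutions in the small groups.
-/

set_option autoImplicit false
set_option maxHeartbeats 4000000
set_option maxRecDepth 100000

namespace CfsgLib.OrderType

/-- The divisors of 84. -/
def D84 : List ℕ := [1, 2, 3, 4, 6, 7, 12, 14, 21, 28, 42, 84]

/-- The table of solution counts over the value `q` of `f`. -/
def tab {M Q : Type*} [Monoid M] [Fintype M] [DecidableEq M] [DecidableEq Q] (f : M → Q) (q : Q) : List ℕ :=
  D84.map fun d => (Finset.univ.filter fun a : M => f a = q ∧ pw 7 a d = 1).card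

/-- The sign of a dihedral group. -/
def dihSgn (n : ℕ) [NeZero n] : DihedralGroup n →* Multiplicative (ZMod 2) :=
  MonoidHom.mk' (fun x => match x with
    | .r _ => Multiplicative.ofAdd 0
    | .sr _ => Multiplicative.ofAdd 1)
    (by rintro (a | a) (b | b) <;> first | rfl | exact (by decide : Multiplicative.ofAdd (0 : ZMod 2) = Multiplicative.ofAdd 1 * Multiplicative.ofAdd 1))

/-- The sign of the dihedral group of order 8. -/
def d8Rot : DihedralGroup 4 →* Multiplicative (ZMod 2) := dihSgn 4

/-- Both characters of the dihedral group of order 8 with non-cyclic kernels. -/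
def d8Pair : DihedralGroup 4 →* Multiplicative (ZMod 2) × Multiplicative (ZMod 2) :=
  MonoidHom.mk' (fun x => match x with
    | .r i => (Multiplicative.ofAdd (i.val : ZMod 2), Multiplicative.ofAdd (i.val : ZMod 2))
    | .sr i => (Multiplicative.ofAdd (i.val : ZMod 2), Multiplicative.ofAdd ((i.val : ZMod 2) + 1)))
    (by decide)

theorem tab_AGamma : tab (fun _ : AGamma => ()) () = [1, 8, 57, 8, 120, 49, 120, 56, 105, 56, 168, 168] := by
  decide +kernel

theorem tab_L168 : tab (fun _ : L168 => ()) () = [1, 22, 57, 64, 78, 49, 120, 70, 105, 112, 126, 168] := by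
  decide +kernel

theorem tab_UT0 : tab UT.sgn (Multiplicative.ofAdd 0) = [1, 20, 1, 32, 20, 1, 32, 20, 1, 32, 20, 32] := by
  decide +kernel

theorem tab_UT1 : tab UT.sgn (Multiplicative.ofAdd 1) = [0, 8, 0, 32, 8, 0, 32, 8, 0, 32, 8, 32] := by
  decide +kernel

theorem tab_D8_0 : tab d8Rot (Multiplicative.ofAdd 0) = [1, 2, 1, 4, 2, 1, 4, 2, 1, 4, 2, 4] := by
  decide +kernel

theorem tab_D14_0 : tab (dihSgn 7) (Multiplicative.ofAdd 0) = [1, 1, 1, 1, 1, 7, 1, 7, 7, 7, 7, 7] := by
  decide +kernel

theorem tab_F42_0 : tab F42.sgn (Multiplicative.ofAdd 0) = [1, 1, 15, 1, 15, 7, 15, 7, 21, 7, 21, 21] := by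
  decide +kernel

theorem tab_D8_1 : tab d8Rot (Multiplicative.ofAdd 1) = [0, 4, 0, 4, 4, 0, 4, 4, 0, 4, 4, 4] := by
  decide +kernel

theorem tab_D14_1 : tab (dihSgn 7) (Multiplicative.ofAdd 1) = [0, 7, 0, 7, 7, 0, 7, 7, 0, 7, 7, 7] := by
  decide +kernel

theorem tab_F42_1 : tab F42.sgn (Multiplicative.ofAdd 1) = [0, 7, 0, 7, 21, 0, 21, 7, 0, 7, 21, 21] := by
  decide +kernel

theorem tab_D8pair_00 : tab d8Pair (Multiplicative.ofAdd 0, Multiplicative.ofAdd 0) = [1, 2, 1, 2, 2, 1, 2, 2, 1, 2, 2, 2] := by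
  decide +kernel

theorem tab_S3D14_00 : tab ((dihSgn 3).prodMap (dihSgn 7)) (Multiplicative.ofAdd 0, Multiplicative.ofAdd 0) = [1, 1, 3, 1, 3, 7, 3, 7, 21, 7, 21, 21] := by
  decide +kernel

theorem tab_D8pair_01 : tab d8Pair (Multiplicative.ofAdd 0, Multiplicative.ofAdd 1) = [0, 2, 0, 2, 2, 0, 2, 2, 0, 2, 2, 2] := by
  decide +kernel

theorem tab_S3D14_01 : tab ((dihSgn 3).prodMap (dihSgn 7)) (Multiplicative.ofAdd 0, Multiplicative.ofAdd 1) = [0, 7, 0, 7, 21, 0, 21, 7, 0, 7, 21, 21] := by
  decide +kernel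

theorem tab_D8pair_10 : tab d8Pair (Multiplicative.ofAdd 1, Multiplicative.ofAdd 0) = [0, 2, 0, 2, 2, 0, 2, 2, 0, 2, 2, 2] := by
  decide +kernel

theorem tab_S3D14_10 : tab ((dihSgn 3).prodMap (dihSgn 7)) (Multiplicative.ofAdd 1, Multiplicative.ofAdd 0) = [0, 3, 0, 3, 3, 0, 3, 21, 0, 21, 21, 21] := by
  decide +kernel

theorem tab_D8pair_11 : tab d8Pair (Multiplicative.ofAdd 1, Multiplicative.ofAdd 1) = [0, 0, 0, 2, 0, 0, 2, 0, 0, 2, 0, 2] := by
  decide +kernel

theorem tab_S3D14_11 : tab ((dihSgn 3).prodMap (dihSgn 7)) (Multiplicative.ofAdd 1, Multiplicative.ofAdd 1) = [0, 21, 0, 21, 21, 0, 21, 21, 0, 21, 21, 21] := by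
  decide +kernel

theorem tab_C2 : tab (fun _ : Multiplicative (ZMod 2) => ()) () = [1, 2, 1, 2, 2, 1, 2, 2, 1, 2, 2, 2] := by
  decide +kernel

theorem tab_C3 : tab (fun _ : Multiplicative (ZMod 3) => ()) () = [1, 1, 3, 1, 3, 1, 3, 1, 3, 1, 3, 3] := by
  decide +kernel

theorem tab_C7 : tab (fun _ : Multiplicative (ZMod 7) => ()) () = [1, 1, 1, 1, 1, 7, 1, 7, 7, 7, 7, 7] := by
  decide +kernel

/-- The list of solution counts. -/
noncomputable def counts (G : Type*) [Monoid G] : List ℕ := D84.map (solCount G)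

theorem counts_prod (A B : Type*) [Monoid A] [Monoid B] :
    counts (A × B) = List.zipWith (· * ·) (counts A) (counts B) := by
  simp only [counts, List.zipWith_map_left, List.zipWith_map_right, List.zipWith_self]
  exact List.map_congr_left fun d _ => solCount_prod d

theorem counts_pi (A : Type*) [Monoid A] (n : ℕ) : counts (Fin n → A) = (counts A).map (· ^ n) := by
  simp only [counts, List.map_map]
  exact List.map_congr_left fun d _ => solCount_pi n d

theorem D84_lt : ∀ d ∈ D84, d < 128 := by decide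

theorem tab_spec {M Q : Type*} [Monoid M] [Fintype M] [DecidableEq M] [DecidableEq Q] (f : M → Q) (q : Q) :
    tab f q = D84.map fun d => Nat.card {a : M // f a = q ∧ a ^ d = 1} :=
  List.map_congr_left fun d hd => (card_sol f q d (D84_lt d hd)).symm

theorem counts_eq_tab {M : Type*} [Monoid M] [Fintype M] [DecidableEq M] :
    counts M = tab (fun _ : M => ()) () := by
  rw [tab_spec]
  exact List.map_congr_left fun d _ => Nat.card_congr (Equiv.subtypeEquivRight fun a => by simp)

theorem counts_ker {M Q : Type*} [Group M] [Group Q] [Fintype M] [DecidableEq M] [DecidableEq Q] (f : M →* Q) :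
    counts f.ker = tab f 1 := by
  rw [tab_spec]
  refine List.map_congr_left fun d _ => Nat.card_congr
    { toFun := fun x => ⟨x.1.1, x.1.2, congrArg Subtype.val x.2⟩
      invFun := fun x => ⟨⟨x.1, x.2.1⟩, Subtype.ext x.2.2⟩
      left_inv := fun _ => rfl
      right_inv := fun _ => rfl }

theorem counts_fib {A B : Type*} [Group A] [Group B] [Fintype A] [Fintype B] [DecidableEq A] [DecidableEq B]
    (f : A →* Multiplicative (ZMod 2)) (g : B →* Multiplicative (ZMod 2)) :
    counts (fib f g) = List.zipWith (· + ·)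
      (List.zipWith (· * ·) (tab f (Multiplicative.ofAdd 0)) (tab g (Multiplicative.ofAdd 0)))
      (List.zipWith (· * ·) (tab f (Multiplicative.ofAdd 1)) (tab g (Multiplicative.ofAdd 1))) := by
  simp only [tab_spec, counts, List.zipWith_map_left, List.zipWith_map_right, List.zipWith_self]
  refine List.map_congr_left fun d _ => ?_
  rw [solCount_fib, show (Finset.univ : Finset (Multiplicative (ZMod 2))) =
    {Multiplicative.ofAdd 0, Multiplicative.ofAdd 1} by decide, Finset.sum_pair (by decide)]

theorem counts_fib₂ {A B : Type*} [Group A] [Group B] [Fintype A] [Fintype B] [DecidableEq A] [DecidableEq B]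
    (f : A →* Multiplicative (ZMod 2) × Multiplicative (ZMod 2))
    (g : B →* Multiplicative (ZMod 2) × Multiplicative (ZMod 2)) :
    counts (fib f g) = List.zipWith (· + ·)
      (List.zipWith (· + ·)
        (List.zipWith (· * ·) (tab f (Multiplicative.ofAdd 0, Multiplicative.ofAdd 0))
          (tab g (Multiplicative.ofAdd 0, Multiplicative.ofAdd 0)))
        (List.zipWith (· * ·) (tab f (Multiplicative.ofAdd 0, Multiplicative.ofAdd 1))
          (tab g (Multiplicative.ofAdd 0, Multiplicative.ofAdd 1))))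
      (List.zipWith (· + ·)
        (List.zipWith (· * ·) (tab f (Multiplicative.ofAdd 1, Multiplicative.ofAdd 0))
          (tab g (Multiplicative.ofAdd 1, Multiplicative.ofAdd 0)))
        (List.zipWith (· * ·) (tab f (Multiplicative.ofAdd 1, Multiplicative.ofAdd 1))
          (tab g (Multiplicative.ofAdd 1, Multiplicative.ofAdd 1)))) := by
  simp only [tab_spec, counts, List.zipWith_map_left, List.zipWith_map_right, List.zipWith_self]
  refine List.map_congr_left fun d _ => ?_
  rw [solCount_fib, show (Finset.univ : Finset (Multiplicative (ZMod 2) × Multiplicative (ZMod 2))) =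
    {(Multiplicative.ofAdd 0, Multiplicative.ofAdd 0), (Multiplicative.ofAdd 0, Multiplicative.ofAdd 1),
      (Multiplicative.ofAdd 1, Multiplicative.ofAdd 0), (Multiplicative.ofAdd 1, Multiplicative.ofAdd 1)} by decide,
    Finset.sum_insert (by decide), Finset.sum_insert (by decide), Finset.sum_pair (by decide)]
  ring

end CfsgLib.OrderType
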